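import Cfsg.Agent.GTwoFour.Data
import Cfsg.Agent.SporJ2.Iso
import Cfsg.Prelude.Def_Steinberg
import Cfsg.Prelude.Def_ChevG2
import Cfsg.Agent.Eq.Def_ChevG2

/-!
Kernel checks for the action of `G₂(4)` on 416 points.
-/

set_option autoImplicit false
set_option maxRecDepth 100000

namespace CfsgLib.GTwoFour

open CfsgLib.CosetEnum CfsgLib.SporJ2 Cfsg.Lie

/-- Multiplication of the codes of the field of four elements. -/
def mulC (a b : ℕ) : ℕ := [0, 0, 0, 0, 0, 1, 2, 3, 0, 2, 3, 1, 0, 3, 1, 2].getD (4 * a + b) 0

/-- Powers of codes. -/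
def powC (a : ℕ) : ℕ → ℕ
  | 0 => 1
  | i + 1 => mulC (powC a i) a

/-- Inverses of codes. -/
def invC (a : ℕ) : ℕ := [0, 1, 3, 2].getD a 0

/-- The root element with a given code, on points. -/
def rootFun (p : ℕ × ℕ) (i : ℕ) : ℕ :=
  match p.2 with
  | 0 => i
  | t + 1 => img16 (rootCodes.getD (3 * p.1 + t) 0) i

/-- A word of root elements on points. -/
def runP : List (ℕ × ℕ) → ℕ → ℕ
  | [], i => i
  | x :: xs, i => rootFun x (runP xs i)

/-- The letters on points. -/
def letterFun (x i : ℕ) : ℕ := img16 (rootCodes.getD x 0) i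

/-- The five involutions on points. -/
def jFun (x i : ℕ) : ℕ := img16 (jCodes.getD x 0) i

theorem root_ok : allBelow (fun x => allBelow (fun i => (letterFun x i).blt 416 &&
    letterFun x (letterFun x i) == i) 416) 36 = true := by decide +kernel

theorem j_ok : allBelow (fun x => allBelow (fun i => (jFun x i).blt 416 &&
    jFun x (jFun x i) == i) 416) 5 = true := by decide +kernel

theorem add_ok : allBelow (fun r => allBelow (fun a => allBelow (fun b =>
    allBelow (fun i => runP [(r, a + 1), (r, b + 1)] i == runP [(r, (a + 1) ^^^ (b + 1))] i) 416)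
    3) 3) 12 = true := by decide +kernel

/-- The commutator word with codes. -/
def commW (r s t u : ℕ) : List (ℕ × ℕ) :=
  (chevG2.commTerms r s).map fun c =>
    (c.1, bif c.2.1 % 2 != 0 then mulC (powC t c.2.2.1) (powC u c.2.2.2) else 0)

/-- The check of the commutator relations of one root. -/
def commOK (r : ℕ) : Bool :=
  allBelow (fun s => (s == r) || (s == chevG2.neg r) || allBelow (fun t => allBelow (fun u =>
    allBelow (fun i => runP [(s, u + 1), (r, t + 1), (s, u + 1), (r, t + 1)] i ==
      runP (commW r s (t + 1) (u + 1)) i) 416) 3) 3) 12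

theorem commTerms_pos : ∀ r < 12, ∀ s < 12, ∀ c ∈ chevG2.commTerms r s,
    c.1 < 12 ∧ 1 ≤ c.2.2.1 ∧ 1 ≤ c.2.2.2 := by
  decide +kernel

theorem neg_lt : ∀ r < 12, chevG2.neg r < 12 := by decide +kernel

theorem comm0 : commOK 0 = true := by decide +kernel
theorem comm1 : commOK 1 = true := by decide +kernel
theorem comm2 : commOK 2 = true := by decide +kernel
theorem comm3 : commOK 3 = true := by decide +kernel
theorem comm4 : commOK 4 = true := by decide +kernel
theorem comm5 : commOK 5 = true := by decide +kernel
theorem comm6 : commOK 6 = true := by decide +kernel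
theorem comm7 : commOK 7 = true := by decide +kernel
theorem comm8 : commOK 8 = true := by decide +kernel
theorem comm9 : commOK 9 = true := by decide +kernel
theorem comm10 : commOK 10 = true := by decide +kernel
theorem comm11 : commOK 11 = true := by decide +kernel

/-- The word `h_r(t) = n_r(t) n_r(1)`. -/
def hW (r t : ℕ) : List (ℕ × ℕ) :=
  [(r, t), (chevG2.neg r, invC t), (r, t), (r, 1), (chevG2.neg r, 1), (r, 1)]

theorem torus_ok : allBelow (fun r => allBelow (fun a => allBelow (fun b => allBelow (fun i =>
    runP (hW r (a + 1) ++ hW r (b + 1)) i == runP (hW r (mulC (a + 1) (b + 1))) i) 416) 3) 3) 12 =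
    true := by decide +kernel

theorem jWords_ok : allBelow (fun x => (jWords.getD x []).all (fun y => y.blt 36) &&
    allBelow (fun i => runR letterFun (jWords.getD x []) i == jFun x i) 416) 5 = true := by
  decide +kernel

theorem jRels_ok : Hundred.rels.all (fun w => w.all (fun x => x.blt 5) &&
    allBelow (fun i => runR jFun w i == i) 416) = true := by
  decide +kernel

/-- An entry of a certificate. -/
def ent (C : List ℕ) (j i : ℕ) : ℕ := img16 (C.getD j 0) i

/-- The number of points of the orbit. -/
def orbCount (C : List ℕ) (k : ℕ) : ℕ :=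
  (List.range 416).countP fun i => (ent C 0 i).blt k

/-- The number of points of the orbit in a set of parts. -/
def maskCount (C : List ℕ) (k m : ℕ) : ℕ :=
  (List.range 416).countP fun i => (ent C 0 i).blt k && m.testBit (ent C 0 i)

/-- The check of the certificate of one orbit and of the parts under a stabiliser. -/
def certOK (f : ℕ → ℕ → ℕ) (L : ℕ) (C : List ℕ) (ws : List (List ℕ)) (roots : List ℕ)
    (rep k : ℕ) : Bool :=
  rep.blt 416 && (ent C 0 rep).blt k &&
  allBelow (fun i => !((ent C 0 i).blt k) || (allBelow (fun x => (ent C 0 (f x i)).blt k) L &&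
    ((i == rep) || ((ent C 1 (ent C 2 i)).blt (ent C 1 i) && (ent C 3 i).blt L &&
      (ent C 2 i).blt 416 && (ent C 0 (ent C 2 i)).blt k && f (ent C 3 i) (ent C 2 i) == i)) &&
    ((i == roots.getD (ent C 0 i) 0) || ((ent C 4 (ent C 5 i)).blt (ent C 4 i) &&
      (ent C 6 i).blt ws.length && (ent C 5 i).blt 416 &&
      ent C 0 (ent C 5 i) == ent C 0 i && runR f (ws.getD (ent C 6 i) []) (ent C 5 i) == i)))) 416 &&
  ws.all (fun w => w.all (fun x => x.blt L) && runR f w rep == rep) &&
  allBelow (fun m => !(m.testBit (ent C 0 rep)) || orbCount C k % maskCount C k m != 0 ||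
    maskCount C k m == 1 || maskCount C k m == orbCount C k) (2 ^ k)

theorem top_ok : certOK letterFun 36 topCert topWords topRoots 0 3 = true := by decide +kernel

theorem top_count : orbCount topCert 3 = 416 := by decide +kernel

theorem big_ok : certOK jFun 5 bigCert bigWords bigRoots 1 6 = true := by decide +kernel

theorem small_ok : certOK jFun 5 smallCert smallWords smallRoots 4 3 = true := by decide +kernel

/-- Outside the point `0` there are only the two orbits. -/
theorem cover_ok : allBelow (fun i => (i == 0) || (ent bigCert 0 i).blt 6 ||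
    (ent smallCert 0 i).blt 3) 416 = true := by decide +kernel

end CfsgLib.GTwoFour
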