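import Cfsg.Agent.GTwoFour.Checks

/-!
Codes of the field of four elements.
-/

set_option autoImplicit false
set_option linter.style.haveILetI false

namespace CfsgLib.GTwoFour

variable {F : Type*} [Field F] [Fintype F] (hF : Fintype.card F = 4)

include hF in
theorem two_eq_zero_four : (2 : F) = 0 := by
  have h : ((Fintype.card F : ℕ) : F) = 0 := FiniteField.cast_card_eq_zero F
  rw [hF] at h
  have h2 : (2 : F) * 2 = 0 := by push_cast at h; rw [← h]; norm_num
  exact mul_self_eq_zero.1 h2

include hF in
theorem exists_code : ∃ e : Fin 4 ≃ F, e 0 = 0 ∧ e 1 = 1 ∧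
    (∀ a b : Fin 4, ((a : ℕ) ^^^ (b : ℕ)) < 4) ∧
    (∀ a b : Fin 4, ∀ c : Fin 4, (c : ℕ) = (a : ℕ) ^^^ (b : ℕ) → e c = e a + e b) ∧
    (∀ a b : Fin 4, ∀ c : Fin 4, (c : ℕ) = mulC a b → e c = e a * e b) := by
  classical
  have h2 : (2 : F) = 0 := two_eq_zero_four hF
  obtain ⟨w, hw0, hw1⟩ : ∃ w : F, w ≠ 0 ∧ w ≠ 1 := by
    by_contra h
    push Not at h
    have hs : (Finset.univ : Finset F) ⊆ {0, 1} := fun x _ => by
      rcases eq_or_ne x 0 with rfl | hx
      · simp
      · simp [h x hx]
    have := Finset.card_le_card hs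
    rw [Finset.card_univ, hF] at this
    have := this.trans Finset.card_le_two
    omega
  have h3 : w ^ 3 = 1 := by
    have := FiniteField.pow_card_sub_one_eq_one w hw0
    rwa [hF] at this
  have hq : w * w = w + 1 := by
    have hprod : (w - 1) * (w * w + w + 1) = 0 := by linear_combination h3
    have := (mul_eq_zero.1 hprod).resolve_left (sub_ne_zero.2 hw1)
    linear_combination this - (w + 1) * h2
  let g : Fin 4 → F := ![0, 1, w, w + 1]
  have hginj : Function.Injective g := by
    have a1 : w + 1 ≠ 0 := fun h => hw1 (by linear_combination h - h2)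
    have a2 : w + 1 ≠ 1 := fun h => hw0 (by linear_combination h)
    have a3 : w + 1 ≠ w := fun h => one_ne_zero (α := F) (by linear_combination h)
    intro a b hab
    fin_cases a <;> fin_cases b <;>
      simp [g, hw0, hw1, a1, a2, a3, Ne.symm hw0, Ne.symm hw1, a1.symm, a2.symm, a3.symm] at hab ⊢
  have hbij : Function.Bijective g :=
    (Fintype.bijective_iff_injective_and_card g).2 ⟨hginj, by rw [hF, Fintype.card_fin]⟩
  refine ⟨Equiv.ofBijective g hbij, rfl, rfl, by decide, ?_, ?_⟩
  · intro a b c hc
    simp only [Equiv.ofBijective_apply]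
    fin_cases a <;> fin_cases b <;> fin_cases c <;> first
      | (exact absurd hc (by decide))
      | (simp [g]; done)
      | (simp [g]; grind)
      | grind
  · intro a b c hc
    simp only [Equiv.ofBijective_apply]
    fin_cases a <;> fin_cases b <;> fin_cases c <;> first
      | (exact absurd hc (by decide))
      | (simp [g]; done)
      | (simp [g]; grind)
      | grind

end CfsgLib.GTwoFour
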