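import Cfsg.Agent.GTwoFour.Orbit
import Cfsg.Agent.GTwoFour.Field
import Cfsg.Agent.ChevSteinberg.Data
import Cfsg.Agent.ChevSteinberg.CenterData
import Cfsg.Agent.ChevSteinberg.SteinbergTorus
import Cfsg.Agent.S1055
import Cfsg.Agent.S1059

/-!
`G₂(4)` as a permutation group on 416 points.
-/

set_option autoImplicit false
set_option linter.style.haveILetI false

namespace CfsgLib.GTwoFour

open CfsgLib.CosetEnum CfsgLib.SporJ2 Cfsg.Lie
open CfsgLib.SporJ2.Hundred (seg)

theorem letter_spec {x : ℕ} (hx : x < 36) (i : Fin 416) :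
    letterFun x i < 416 ∧ letterFun x (letterFun x i) = i := by
  have h := (Model.allBelow_iff _ _).1 ((Model.allBelow_iff _ _).1 root_ok x hx) i i.2
  simp only [Bool.and_eq_true, Nat.blt, Nat.ble_eq, beq_iff_eq] at h
  exact h

/-- A letter as a permutation. -/
def letter (x : ℕ) : Equiv.Perm (Fin 416) :=
  if hx : x < 36 then
    Function.Involutive.toPerm (fun i : Fin 416 => ⟨letterFun x i, (letter_spec hx i).1⟩)
      fun i => Fin.ext (letter_spec hx i).2
  else 1

theorem letter_apply {x : ℕ} (hx : x < 36) (i : Fin 416) :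
    ((letter x i : Fin 416) : ℕ) = letterFun x i := by
  rw [letter, dif_pos hx]; rfl

theorem letter_inv (x : ℕ) : (letter x)⁻¹ = letter x := by
  by_cases hx : x < 36
  · refine inv_eq_of_mul_eq_one_left (Equiv.ext fun i => Fin.ext ?_)
    rw [Equiv.Perm.mul_apply, letter_apply hx, letter_apply hx, (letter_spec hx i).2]
    rfl
  · rw [letter, dif_neg hx, inv_one]

/-- A root element with a code as a permutation. -/
def rootPerm (p : ℕ × ℕ) : Equiv.Perm (Fin 416) :=
  match p.2 with
  | 0 => 1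
  | t + 1 => letter (3 * p.1 + t)

theorem rootPerm_apply {p : ℕ × ℕ} (h1 : p.1 < 12) (h2 : p.2 < 4) (i : Fin 416) :
    ((rootPerm p i : Fin 416) : ℕ) = rootFun p i := by
  obtain ⟨r, t⟩ := p
  cases t with
  | zero => rfl
  | succ t => exact letter_apply (by omega) i

/-- The permutation of a word. -/
def wordP (w : List (ℕ × ℕ)) : Equiv.Perm (Fin 416) := (w.map rootPerm).prod

theorem wordP_apply : ∀ w : List (ℕ × ℕ), (∀ p ∈ w, p.1 < 12 ∧ p.2 < 4) → ∀ i : Fin 416,
    ((wordP w i : Fin 416) : ℕ) = runP w i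
  | [], _, i => rfl
  | p :: w, h, i => by
    rw [wordP, List.map_cons, List.prod_cons, Equiv.Perm.mul_apply,
      rootPerm_apply (h p List.mem_cons_self).1 (h p List.mem_cons_self).2, ← wordP,
      wordP_apply w (fun q hq => h q (List.mem_cons_of_mem _ hq)) i]
    rfl

theorem wordP_eq {w w' : List (ℕ × ℕ)} (h : ∀ p ∈ w ++ w', p.1 < 12 ∧ p.2 < 4)
    (he : ∀ i < 416, runP w i = runP w' i) : wordP w = wordP w' :=
  Equiv.ext fun i => Fin.ext (by
    rw [wordP_apply w (fun p hp => h p (List.mem_append_left _ hp)),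
      wordP_apply w' (fun p hp => h p (List.mem_append_right _ hp)), he i i.2])

theorem rootPerm_zero (r : ℕ) : rootPerm (r, 0) = 1 := rfl

theorem mulC_lt : ∀ a < 4, ∀ b < 4, mulC a b < 4 := by decide

theorem powC_lt {a : ℕ} (ha : a < 4) : ∀ i, powC a i < 4
  | 0 => by show 1 < 4; norm_num
  | i + 1 => mulC_lt _ (powC_lt ha i) _ ha

theorem invC_spec : ∀ t : Fin 4, t ≠ 0 → invC t < 4 ∧ mulC t (invC t) = 1 := by decide

variable {F : Type*} [Field F] (e : Fin 4 ≃ F)

/-- The images of the generators. -/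
def genPerm (g : Fin chevG2.nroots × F) : Equiv.Perm (Fin 416) := rootPerm (g.1, e.symm g.2)

theorem lift_stX {r : ℕ} (hr : r < 12) (t : F) :
    FreeGroup.lift (genPerm e) (chevG2.stX r t) = rootPerm (r, e.symm t) := by
  rw [ChevalleyDatum.stX, dif_pos (show r < chevG2.nroots from hr), FreeGroup.lift_apply_of]
  rfl

variable (he0 : e 0 = 0) (he1 : e 1 = 1)
  (hlt : ∀ a b : Fin 4, ((a : ℕ) ^^^ (b : ℕ)) < 4)
  (hadd : ∀ a b : Fin 4, ∀ c : Fin 4, (c : ℕ) = (a : ℕ) ^^^ (b : ℕ) → e c = e a + e b)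
  (hmul : ∀ a b : Fin 4, ∀ c : Fin 4, (c : ℕ) = mulC a b → e c = e a * e b)
  (htwo : (2 : F) = 0)
include he0 he1 hlt hadd hmul htwo

omit hlt in
theorem e_pow (a : Fin 4) : ∀ i, e ⟨powC a i, powC_lt a.2 i⟩ = e a ^ i
  | 0 => by rw [pow_zero]; exact he1
  | i + 1 => by
    rw [pow_succ, ← e_pow a i]
    exact hmul ⟨powC a i, powC_lt a.2 i⟩ a _ rfl

omit hlt hmul in
theorem intCast_parity (c : ℤ) : (c : F) = if c % 2 != 0 then 1 else 0 := by
  conv_lhs => rw [← Int.mul_ediv_add_emod c 2]
  push_cast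
  rw [htwo, zero_mul, zero_add]
  rcases Int.emod_two_eq c with h | h <;> simp [h]

theorem lift_rels : ∀ g ∈ chevG2.steinbergRels F, FreeGroup.lift (genPerm e) g = 1 := by
  have hinv : ∀ r < 12, ∀ t : F, (FreeGroup.lift (genPerm e) (chevG2.stX r t))⁻¹ =
      FreeGroup.lift (genPerm e) (chevG2.stX r t) := by
    intro r hr t
    rw [lift_stX e hr]
    rcases Nat.eq_zero_or_pos (e.symm t : ℕ) with h | h
    · rw [h, rootPerm_zero, inv_one]
    · obtain ⟨k, hk⟩ := Nat.exists_eq_succ_of_ne_zero (by omega : (e.symm t : ℕ) ≠ 0)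
      have hk4 := (e.symm t).2
      rw [hk]
      exact letter_inv _
  rintro g ((⟨r, t₁, t₂, hr, rfl⟩ | ⟨r, s, t, u, hr, hs, h1, h2, rfl⟩) |
    ⟨r, t₁, t₂, hr, ht₁, ht₂, rfl⟩)
  · rw [map_mul, map_mul, map_inv, mul_inv_eq_one, lift_stX e hr, lift_stX e hr, lift_stX e hr]
    obtain ⟨a, rfl⟩ := e.surjective t₁
    obtain ⟨b, rfl⟩ := e.surjective t₂
    rw [e.symm_apply_apply, e.symm_apply_apply, ← hadd a b ⟨_, hlt a b⟩ rfl, e.symm_apply_apply]
    rcases Nat.eq_zero_or_pos (a : ℕ) with ha | ha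
    · simp [ha, rootPerm_zero]
    rcases Nat.eq_zero_or_pos (b : ℕ) with hb | hb
    · simp [hb, rootPerm_zero]
    have h := wordP_eq (w := [(r, (a : ℕ)), (r, (b : ℕ))]) (w' := [(r, (a : ℕ) ^^^ (b : ℕ))]) (by
        simp only [List.mem_append, List.mem_cons, List.not_mem_nil, or_false]
        rintro p ((rfl | rfl) | rfl)
        exacts [⟨hr, a.2⟩, ⟨hr, b.2⟩, ⟨hr, hlt a b⟩]) (fun i hi => by
        have h := add_ok
        simp only [Model.allBelow_iff, beq_iff_eq] at h
        have := h r hr ((a : ℕ) - 1) (by omega) ((b : ℕ) - 1) (by omega) i hi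
        rwa [Nat.sub_add_cancel ha, Nat.sub_add_cancel hb] at this)
    simpa [wordP] using h
  · obtain ⟨a, rfl⟩ := e.surjective t
    obtain ⟨b, rfl⟩ := e.surjective u
    have hr12 : r < 12 := hr
    have hs12 : s < 12 := hs
    simp only [map_mul, map_inv, mul_inv_eq_one]
    rw [hinv r hr12, hinv s hs12]
    have hterm : FreeGroup.lift (genPerm e) (chevG2.stWord (chevG2.commWord F r s (e a) (e b))) =
        wordP (commW r s a b) := by
      rw [ChevalleyDatum.stWord, map_list_prod, ChevalleyDatum.commWord, List.map_map, List.map_map,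
        wordP, commW, List.map_map]
      refine congrArg List.prod (List.map_congr_left fun c hc => ?_)
      obtain ⟨hc1, -, -⟩ := commTerms_pos r hr12 s hs12 c hc
      show FreeGroup.lift (genPerm e) (chevG2.stX c.1 ((c.2.1 : F) * (-e a) ^ c.2.2.1 *
        e b ^ c.2.2.2)) = rootPerm (c.1, _)
      rw [lift_stX e hc1, intCast_parity e he0 he1 hadd htwo,
        show -e a = e a by rw [neg_eq_iff_add_eq_zero, ← two_mul, htwo, zero_mul]]
      by_cases hp : (c.2.1 % 2 != 0) = true
      · rw [if_pos hp, hp, cond_true, one_mul, ← e_pow e he0 he1 hadd hmul htwo a,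
          ← e_pow e he0 he1 hadd hmul htwo b,
          ← hmul _ _ ⟨_, mulC_lt _ (powC_lt a.2 _) _ (powC_lt b.2 _)⟩ rfl, e.symm_apply_apply]
      · rw [if_neg hp, Bool.eq_false_iff.2 hp, cond_false, zero_mul, zero_mul, ← he0,
          e.symm_apply_apply]
        rfl
    rw [hterm]
    have hz : (a : ℕ) = 0 ∨ (b : ℕ) = 0 → wordP (commW r s a b) = 1 := fun h => by
      refine List.prod_eq_one fun x hx => ?_
      obtain ⟨p, hp, rfl⟩ := List.mem_map.1 hx
      obtain ⟨c, hc, rfl⟩ := List.mem_map.1 hp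
      obtain ⟨hc1, hi, hj⟩ := commTerms_pos r hr12 s hs12 c hc
      have hz1 : ∀ n, 1 ≤ n → powC 0 n = 0 := by
        intro n hn
        obtain ⟨k, rfl⟩ := Nat.exists_eq_succ_of_ne_zero (by omega : n ≠ 0)
        show mulC (powC 0 k) 0 = 0
        have := powC_lt (show (0 : ℕ) < 4 by norm_num) k
        generalize powC 0 k = q at this ⊢
        interval_cases q <;> rfl
      have hz2 : ∀ q < 4, mulC 0 q = 0 ∧ mulC q 0 = 0 := by decide
      cases hb : (c.2.1 % 2 != 0) with
      | false => rfl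
      | true =>
        rcases h with h | h
        · simp only [cond_true, h, hz1 _ hi, (hz2 _ (powC_lt b.2 _)).1, rootPerm_zero]
        · simp only [cond_true, h, hz1 _ hj, (hz2 _ (powC_lt a.2 _)).2, rootPerm_zero]
    simp only [lift_stX e hr12, lift_stX e hs12, Equiv.symm_apply_apply]
    rcases Nat.eq_zero_or_pos (a : ℕ) with ha | ha
    · rw [hz (Or.inl ha), ha, rootPerm_zero, mul_one, mul_one]
      have := hinv s hs12 (e b)
      rw [lift_stX e hs12, e.symm_apply_apply] at this
      conv_lhs => arg 1; rw [← this]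
      rw [inv_mul_cancel]
    rcases Nat.eq_zero_or_pos (b : ℕ) with hb | hb
    · rw [hz (Or.inr hb), hb, rootPerm_zero, one_mul, mul_one]
      have := hinv r hr12 (e a)
      rw [lift_stX e hr12, e.symm_apply_apply] at this
      conv_lhs => arg 1; rw [← this]
      rw [inv_mul_cancel]
    have h := wordP_eq (w := [(s, (b : ℕ)), (r, (a : ℕ)), (s, (b : ℕ)), (r, (a : ℕ))])
      (w' := commW r s a b) (by
        intro p hp
        rcases List.mem_append.1 hp with hp | hp
        · simp only [List.mem_cons, List.not_mem_nil, or_false] at hp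
          rcases hp with rfl | rfl | rfl | rfl
          exacts [⟨hs12, b.2⟩, ⟨hr12, a.2⟩, ⟨hs12, b.2⟩, ⟨hr12, a.2⟩]
        · obtain ⟨c, hc, rfl⟩ := List.mem_map.1 hp
          refine ⟨(commTerms_pos r hr12 s hs12 c hc).1, ?_⟩
          cases (c.2.1 % 2 != 0)
          · show 0 < 4; norm_num
          · exact mulC_lt _ (powC_lt a.2 _) _ (powC_lt b.2 _)) (fun i hi => by
        have hall : ∀ q < 12, commOK q = true := by
          intro q hq
          interval_cases q
          exacts [comm0, comm1, comm2, comm3, comm4, comm5, comm6, comm7, comm8, comm9, comm10,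
            comm11]
        have h := hall r hr12
        simp only [commOK, Model.allBelow_iff, Bool.or_eq_true, beq_iff_eq] at h
        have := (h s hs12).resolve_left (fun hh => hh.elim h1 h2) ((a : ℕ) - 1) (by omega)
          ((b : ℕ) - 1) (by omega) i hi
        rwa [Nat.sub_add_cancel ha, Nat.sub_add_cancel hb] at this)
    rw [← h]
    simp [wordP, mul_assoc]
  · obtain ⟨a, rfl⟩ := e.surjective t₁
    obtain ⟨b, rfl⟩ := e.surjective t₂
    have ha : (a : ℕ) ≠ 0 := fun h => ht₁ (by rw [show a = 0 from Fin.ext h, he0])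
    have hb : (b : ℕ) ≠ 0 := fun h => ht₂ (by rw [show b = 0 from Fin.ext h, he0])
    have hr12 : r < 12 := hr
    have hW0 : ∀ c : Fin 4, c ≠ 0 →
        FreeGroup.lift (genPerm e) (chevG2.stH r (e c)) = wordP (hW r c) := by
      intro c hc
      obtain ⟨hi4, hi1⟩ := invC_spec c hc
      have hc0 : e c ≠ 0 := he0 ▸ e.injective.ne hc
      have hinvc : (e c)⁻¹ = e ⟨invC c, hi4⟩ := by
        refine inv_eq_of_mul_eq_one_right ?_
        rw [← hmul c ⟨invC c, hi4⟩ 1 hi1.symm, he1]
      have hneg : ∀ x : F, -x = x := fun x => by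
        rw [neg_eq_iff_add_eq_zero, ← two_mul, htwo, zero_mul]
      have hs1 : e.symm (1 : F) = 1 := by rw [← he1, e.symm_apply_apply]
      have hn : chevG2.neg r < 12 := neg_lt r hr12
      simp only [ChevalleyDatum.stH, ChevalleyDatum.hWord, ChevalleyDatum.nWord, inv_one, hneg,
        hinvc, List.cons_append, List.nil_append, ChevalleyDatum.stWord, List.map_cons, List.map_nil,
        List.prod_cons, List.prod_nil, map_mul, map_one, lift_stX e hr12, lift_stX e hn,
        Equiv.symm_apply_apply, wordP, hW, hs1]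
      rfl
    have hab : mulC a b < 4 := mulC_lt _ a.2 _ b.2
    have hab0 : (⟨mulC a b, hab⟩ : Fin 4) ≠ 0 := fun h => mul_ne_zero ht₁ ht₂ (by
      rw [← hmul a b ⟨mulC a b, hab⟩ rfl, h, he0])
    rw [map_mul, map_mul, map_inv, mul_inv_eq_one, hW0 a (fun h => ha (by rw [h]; rfl)),
      hW0 b (fun h => hb (by rw [h]; rfl)), ← hmul a b ⟨_, hab⟩ rfl, hW0 _ hab0]
    have hlen : ∀ c < 4, c ≠ 0 → ∀ p ∈ hW r c, p.1 < 12 ∧ p.2 < 4 := by
      intro c hc hc0 p hp
      have hn : chevG2.neg r < 12 := neg_lt r hr12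
      have hi : invC c < 4 := (invC_spec ⟨c, hc⟩ fun h => hc0 (congrArg Fin.val h)).1
      simp only [hW, List.mem_cons, List.not_mem_nil, or_false] at hp
      rcases hp with rfl | rfl | rfl | rfl | rfl | rfl
      exacts [⟨hr12, hc⟩, ⟨hn, hi⟩, ⟨hr12, hc⟩, ⟨hr12, by show 1 < 4; norm_num⟩,
        ⟨hn, by show 1 < 4; norm_num⟩, ⟨hr12, by show 1 < 4; norm_num⟩]
    have h := wordP_eq (w := hW r a ++ hW r b) (w' := hW r (mulC a b)) (by
        intro p hp
        rcases List.mem_append.1 hp with hp | hp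
        · rcases List.mem_append.1 hp with hp | hp
          · exact hlen _ a.2 ha p hp
          · exact hlen _ b.2 hb p hp
        · exact hlen _ hab (fun h => hab0 (Fin.ext h)) p hp) (fun i hi => by
        have h := torus_ok
        simp only [Model.allBelow_iff, beq_iff_eq] at h
        have := h r hr12 ((a : ℕ) - 1) (by omega) ((b : ℕ) - 1) (by omega) i hi
        rwa [Nat.sub_add_cancel (by omega : 1 ≤ (a : ℕ)),
          Nat.sub_add_cancel (by omega : 1 ≤ (b : ℕ))] at this)
    rwa [wordP, List.map_append, List.prod_append] at h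

/-- The homomorphism from the Steinberg group. -/
def steinbergPerm : chevG2.SteinbergGroup F →* Equiv.Perm (Fin 416) :=
  PresentedGroup.toGroup (lift_rels e he0 he1 hlt hadd hmul htwo)

theorem steinbergPerm_mk (x : FreeGroup (Fin chevG2.nroots × F)) :
    steinbergPerm e he0 he1 hlt hadd hmul htwo (PresentedGroup.mk (chevG2.steinbergRels F) x) =
      FreeGroup.lift (genPerm e) x :=
  rfl

end CfsgLib.GTwoFour
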