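import Cfsg.Agent.GTwoFour.Hom

/-!
`J₂` is maximal in `G₂(4)`, and the action on its cosets is extremely primitive.
-/

set_option autoImplicit false
set_option linter.style.haveILetI false

namespace CfsgLib.GTwoFour

open CfsgLib.CosetEnum CfsgLib.SporJ2 Cfsg.Lie
open CfsgLib.SporJ2.Hundred (seg)

theorem j_spec {x : ℕ} (hx : x < 5) (i : Fin 416) :
    jFun x i < 416 ∧ jFun x (jFun x i) = i := by
  have h := (Model.allBelow_iff _ _).1 ((Model.allBelow_iff _ _).1 j_ok x hx) i i.2
  simp only [Bool.and_eq_true, Nat.blt, Nat.ble_eq, beq_iff_eq] at h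
  exact h

theorem jWords_spec {x : ℕ} (hx : x < 5) :
    (∀ y ∈ jWords.getD x [], y < 36) ∧
      ∀ i < 416, runR letterFun (jWords.getD x []) i = jFun x i := by
  have h := (Model.allBelow_iff _ _).1 jWords_ok x hx
  simp only [Bool.and_eq_true, List.all_eq_true, Nat.blt, Nat.ble_eq, Model.allBelow_iff,
    beq_iff_eq] at h
  exact h

theorem jRels_spec : ∀ w ∈ Hundred.rels, (∀ x ∈ w, x < 5) ∧
    ∀ i < 416, runR jFun w i = i := by
  intro w hw
  have := List.all_eq_true.1 jRels_ok w hw
  simp only [Bool.and_eq_true, List.all_eq_true, Nat.blt, Nat.ble_eq, Model.allBelow_iff,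
    beq_iff_eq] at this
  exact this

theorem cover_spec (i : Fin 416) :
    i = ⟨0, by norm_num⟩ ∨ ent bigCert 0 i < 6 ∨ ent smallCert 0 i < 3 := by
  have h := (Model.allBelow_iff _ _).1 cover_ok i i.2
  simp only [Bool.or_eq_true, Nat.blt, Nat.ble_eq, beq_iff_eq] at h
  rcases h with (h | h) | h
  · exact Or.inl (Fin.ext h)
  · exact Or.inr (Or.inl h)
  · exact Or.inr (Or.inr h)

/-- Extreme primitivity of `G₂(4)` on the cosets of `J₂`. -/
theorem exists_hallJanko {F : Type*} [Field F] [Fintype F] (hF : Fintype.card F = 4) :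
    ∃ H : Subgroup (chevG2.group F), IsCoatom H ∧ Cfsg.Spor.IsoJ2 H ∧
      ∀ x : chevG2.group F, x ∉ H →
        IsCoatom ((H ⊓ H.map (MulAut.conj x).toMonoidHom).subgroupOf H) := by
  classical
  obtain ⟨e, he0, he1, hlt, hadd, hmul⟩ := exists_code hF
  have htwo := two_eq_zero_four hF
  let P := steinbergPerm e he0 he1 hlt hadd hmul htwo
  -- the Steinberg group is the Chevalley group
  let π := CfsgLib.ChevSteinberg.groupProj CfsgLib.Chevalley.sysG2 F
  have hker : π.ker = ⊥ := by
    show (CfsgLib.ChevSteinberg.groupProj CfsgLib.Chevalley.sysG2 F).ker = ⊥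
    rw [CfsgLib.ChevSteinberg.groupProj_ker _ _ CfsgLib.ChevSteinberg.witness_G2]
    exact CfsgLib.ChevSteinberg.center_eq_bot_of_ker_torF _ F CfsgLib.ChevSteinberg.witness_G2
      CfsgLib.ChevSteinberg.ker_torF_G2
  let eSt : chevG2.SteinbergGroup F ≃* ↥(chevG2.group F) := MulEquiv.ofBijective π
    ⟨(MonoidHom.ker_eq_bot_iff π).1 hker, CfsgLib.ChevSteinberg.groupProj_surjective _ _⟩
  let ρ : ↥(chevG2.group F) →* Equiv.Perm (Fin 416) := P.comp eSt.symm.toMonoidHom
  let gen : ℕ → ↥(chevG2.group F) := fun x =>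
    eSt (PresentedGroup.mk _ (chevG2.stX (x / 3) (e ⟨x % 3 + 1, by omega⟩)))
  have hρgen : ∀ x < 36, ρ (gen x) = letter x := by
    intro x hx
    show P (eSt.symm (eSt _)) = _
    rw [MulEquiv.symm_apply_apply, steinbergPerm_mk, lift_stX e (by omega), e.symm_apply_apply]
    show letter (3 * (x / 3) + x % 3) = letter x
    rw [Nat.div_add_mod]
  have hgen_apply : ∀ x < 36, ∀ i : Fin 416, ((ρ (gen x) i : Fin 416) : ℕ) = letterFun x i :=
    fun x hx i => by rw [hρgen x hx]; exact letter_apply hx i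
  have hgen : seg gen 36 = ⊤ := by
    rw [eq_top_iff]
    intro g _
    obtain ⟨z, rfl⟩ := eSt.surjective g
    have hz : z ∈ Subgroup.closure {g : chevG2.SteinbergGroup F |
        ∃ r < chevG2.nroots, ∃ t, g = PresentedGroup.mk (chevG2.steinbergRels F) (chevG2.stX r t)} := by
      rw [CfsgLib.ChevSteinberg.pres_gen]; trivial
    induction hz using Subgroup.closure_induction with
    | mem z hz =>
      obtain ⟨r, hr, t, rfl⟩ := hz
      obtain ⟨a, rfl⟩ := e.surjective t
      have hr12 : r < 12 := hr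
      rcases Nat.eq_zero_or_pos (a : ℕ) with ha | ha
      · have h1 := PresentedGroup.one_of_mem (rels := chevG2.steinbergRels F)
          (x := chevG2.stX r (0 : F) * chevG2.stX r (0 : F) * (chevG2.stX r ((0 : F) + 0))⁻¹)
          (Or.inl (Or.inl ⟨r, 0, 0, hr, rfl⟩))
        rw [add_zero, mul_inv_cancel_right] at h1
        rw [show a = 0 from Fin.ext ha, he0, h1, map_one]
        exact one_mem _
      · refine Subgroup.subset_closure ⟨3 * r + ((a : ℕ) - 1), by omega, ?_⟩
        have h4 := a.2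
        show eSt _ = eSt _
        congr 4
        · omega
        · exact Fin.ext (show (3 * r + ((a : ℕ) - 1)) % 3 + 1 = (a : ℕ) by omega)
    | one => rw [map_one]; exact one_mem _
    | mul a b _ _ iha ihb => rw [map_mul]; exact mul_mem (iha trivial) (ihb trivial)
    | inv a _ iha => rw [map_inv]; exact inv_mem (iha trivial)
  -- faithfulness
  have hF2 : ∃ a : F, a ≠ 0 ∧ a ≠ 1 :=
    ⟨e 2, he0 ▸ e.injective.ne (by decide), he1 ▸ e.injective.ne (by decide)⟩
  haveI := (Cfsg.Agent.S1055.result hF2).1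
  have hcardG : Nat.card ↥(chevG2.group F) = 251596800 := by
    rw [Cfsg.Agent.S1059.result (q := 4) hF]; norm_num
  let o : Fin 416 := ⟨0, by norm_num⟩
  have horb : {i | ∃ a, ρ a o = i} = Set.univ := by
    rw [orbit_eq ρ gen hgen_apply hgen o top_ok]
    refine Set.eq_univ_of_forall fun i => ?_
    by_contra h
    have hlt' : orbCount topCert 3 < 416 := by
      have := List.countP_le_length (p := fun j => (ent topCert 0 j).blt 3) (l := List.range 416)
      refine lt_of_le_of_ne (by simpa [orbCount] using this) fun heq => h ?_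
      have := List.countP_eq_length.1 (show (List.range 416).countP
          (fun j => (ent topCert 0 j).blt 3) = (List.range 416).length by
        rw [List.length_range]; exact heq) i (List.mem_range.2 i.2)
      exact Nat.ble_eq.mp this
    exact absurd top_count hlt'.ne
  have hinj : Function.Injective ρ := by
    rw [← MonoidHom.ker_eq_bot_iff]
    refine ρ.normal_ker.eq_bot_or_eq_top.resolve_right fun htop => ?_
    obtain ⟨a, ha⟩ := (Set.ext_iff.1 horb ⟨1, by norm_num⟩).2 trivial
    have h1 : ρ a = 1 := MonoidHom.mem_ker.1 (htop ▸ Subgroup.mem_top a)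
    rw [h1] at ha
    exact absurd (congrArg Fin.val ha) (show (0 : ℕ) ≠ 1 by norm_num)
  set H := stabAt ρ o with hH
  have hcardH : Nat.card H = 604800 := by
    have h := card_stabAt_mul ρ o
    rw [horb, Set.ncard_univ, Nat.card_fin, hcardG] at h
    exact Nat.eq_of_mul_eq_mul_right (by norm_num : 0 < 416) (h.trans (by norm_num))
  -- the Hall-Janko group
  let v : ℕ → ↥(chevG2.group F) := fun x => gword gen (jWords.getD x [])
  have hv : ∀ x < 5, ∀ i : Fin 416, ((ρ (v x) i : Fin 416) : ℕ) = jFun x i := fun x hx i => by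
    rw [rho_gword ρ gen hgen_apply _ (jWords_spec hx).1]
    exact (jWords_spec hx).2 i i.2
  have hvrel : ∀ w ∈ Hundred.rels, gword v w = 1 := fun w hw => hinj (Equiv.ext fun i => Fin.ext (by
    rw [rho_gword ρ v hv w (jRels_spec w hw).1, (jRels_spec w hw).2 i i.2, map_one]; rfl))
  have hvH : seg v 5 ≤ H := by
    rw [seg, Subgroup.closure_le]
    rintro _ ⟨x, hx, rfl⟩
    refine (mem_stabAt ρ).2 (Fin.ext ?_)
    rw [hv x hx]
    have h : allBelow (fun x => jFun x 0 == 0) 5 = true := by decide +kernel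
    exact beq_iff_eq.1 ((Model.allBelow_iff _ _).1 h x hx)
  have hnt : Nontrivial (seg v 5) := by
    refine ⟨⟨⟨v 0, Subgroup.subset_closure ⟨0, by norm_num, rfl⟩⟩, 1, fun h => ?_⟩⟩
    have h0 : v 0 = 1 := congrArg Subtype.val h
    have hne : allBelow (fun i => jFun 0 i == i) 416 = false := by decide +kernel
    rw [← Bool.not_eq_true, Model.allBelow_iff] at hne
    refine hne fun i hi => beq_iff_eq.2 ?_
    have := hv 0 (by norm_num) ⟨i, hi⟩
    rw [h0, map_one] at this
    exact this.symm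
  obtain ⟨eJ⟩ := nonempty_equiv_seg v hvrel hnt
  have hseg : seg v 5 = H := Subgroup.eq_of_le_of_card_ge hvH (by
    rw [hcardH, ← Nat.card_congr eJ.toEquiv, Hundred.card_grp])
  let vH : ℕ → H := fun x => if hx : x < 5 then
    ⟨v x, hvH (Subgroup.subset_closure ⟨x, hx, rfl⟩)⟩ else 1
  have hvHval : ∀ x < 5, (vH x : ↥(chevG2.group F)) = v x := fun x hx => by simp [vH, hx]
  have hvH_apply : ∀ x < 5, ∀ i : Fin 416,
      (((ρ.comp H.subtype) (vH x) i : Fin 416) : ℕ) = jFun x i := fun x hx i => by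
    rw [MonoidHom.comp_apply, Subgroup.coe_subtype, hvHval x hx]; exact hv x hx i
  have hgenH : seg vH 5 = ⊤ := by
    refine Subgroup.map_injective (f := H.subtype) Subtype.val_injective ?_
    rw [seg, MonoidHom.map_closure, ← MonoidHom.range_eq_map, Subgroup.range_subtype]
    refine Eq.trans ?_ hseg
    rw [seg]
    refine congrArg Subgroup.closure (Set.ext fun z => ⟨?_, ?_⟩)
    · rintro ⟨_, ⟨x, hx, rfl⟩, rfl⟩
      exact ⟨x, hx, (hvHval x hx).symm⟩
    · rintro ⟨x, hx, rfl⟩
      exact ⟨_, ⟨x, hx, rfl⟩, hvHval x hx⟩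
  refine ⟨H, isCoatom_stab ρ gen hgen_apply hgen o top_ok (by rw [top_count]; norm_num), ?_, ?_⟩
  · obtain ⟨eH⟩ := exists_equiv_J2
    exact ⟨((MulEquiv.subgroupCongr hseg.symm).trans eJ.symm).trans eH.symm⟩
  · intro x hx
    have hi : ρ x o ≠ o := hx
    have heq : (H ⊓ H.map (MulAut.conj x).toMonoidHom).subgroupOf H =
        stabAt (ρ.comp H.subtype) (ρ x o) := by
      ext a
      have hxo : (ρ x)⁻¹ (ρ x o) = o := Equiv.Perm.inv_eq_iff_eq.2 rfl
      have hconj : (a : ↥(chevG2.group F)) ∈ H.map (MulAut.conj x).toMonoidHom ↔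
          ρ a (ρ x o) = ρ x o := by
        constructor
        · rintro ⟨b, hb, hab⟩
          rw [← hab]
          show ρ (x * b * x⁻¹) (ρ x o) = ρ x o
          rw [map_mul, map_mul, map_inv, Equiv.Perm.mul_apply, Equiv.Perm.mul_apply,
            hxo, (mem_stabAt ρ).1 hb]
        · intro ha
          refine ⟨x⁻¹ * a * x, (mem_stabAt ρ).2 ?_, ?_⟩
          · rw [map_mul, map_mul, map_inv, Equiv.Perm.mul_apply, Equiv.Perm.mul_apply, ha, hxo]
          · show x * (x⁻¹ * a * x) * x⁻¹ = a
            group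
      rw [Subgroup.mem_subgroupOf, Subgroup.mem_inf, hconj]
      exact ⟨fun h => h.2, fun h => ⟨a.2, h⟩⟩
    rw [heq]
    rcases cover_spec (ρ x o) with h | h | h
    · exact absurd h hi
    · exact isCoatom_stab_of_mem (ρ.comp H.subtype) vH hvH_apply hgenH ⟨1, by norm_num⟩ big_ok
        (by decide +kernel) h
    · exact isCoatom_stab_of_mem (ρ.comp H.subtype) vH hvH_apply hgenH ⟨4, by norm_num⟩ small_ok
        (by decide +kernel) h

end CfsgLib.GTwoFour
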