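import Cfsg.Agent.GTwoFour.Checks

/-!
Certified orbits give maximal point stabilisers, and five involutions with the relations of `J₂`
generate `J₂`.
-/

set_option autoImplicit false

namespace CfsgLib.GTwoFour

open CfsgLib.CosetEnum CfsgLib.SporJ2
open CfsgLib.SporJ2.Hundred (seg)

/-- A predicate on numbers below a bound is given by the bits of a number. -/
theorem exists_bits (P : ℕ → Prop) : ∀ k, ∃ m < 2 ^ k, ∀ l < k, (Nat.testBit m l = true ↔ P l)
  | 0 => ⟨0, by norm_num, fun l hl => absurd hl (Nat.not_lt_zero l)⟩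
  | k + 1 => by
    classical
    obtain ⟨m, hm, h⟩ := exists_bits P k
    by_cases hP : P k
    · refine ⟨2 ^ k + m, by rw [pow_succ]; omega, fun l hl => ?_⟩
      rcases Nat.lt_succ_iff_lt_or_eq.1 hl with hl | rfl
      · rw [Nat.testBit_two_pow_add_gt hl]; exact h l hl
      · simp [Nat.testBit_two_pow_add_eq, Nat.testBit_lt_two_pow hm, hP]
    · refine ⟨m, by rw [pow_succ]; omega, fun l hl => ?_⟩
      rcases Nat.lt_succ_iff_lt_or_eq.1 hl with hl | rfl
      · exact h l hl
      · simp [Nat.testBit_lt_two_pow hm, hP]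

theorem ncard_eq_countP (q : ℕ → Bool) :
    {i : Fin 416 | q i = true}.ncard = (List.range 416).countP q := by
  classical
  rw [show {i : Fin 416 | q i = true} = ↑(Finset.univ.filter fun i : Fin 416 => q i = true) by
    ext; simp, Set.ncard_coe_finset]
  rw [← Finset.card_map Fin.valEmbedding]
  rw [show (Finset.univ.filter fun i : Fin 416 => q i = true).map Fin.valEmbedding =
      (List.range 416).toFinset.filter (fun i => q i = true) by
    ext i
    simp only [Finset.mem_map, Finset.mem_filter, Finset.mem_univ, true_and, List.mem_toFinset,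
      List.mem_range, Fin.valEmbedding_apply]
    exact ⟨fun ⟨a, ha, he⟩ => he ▸ ⟨a.2, ha⟩, fun ⟨hi, hq⟩ => ⟨⟨i, hi⟩, hq, rfl⟩⟩,
    ← List.toFinset_filter, List.toFinset_card_of_nodup (List.nodup_range.filter _),
    List.countP_eq_length_filter]

section Certificate

variable {Γ : Type*} [Group Γ] [Finite Γ] (ρ : Γ →* Equiv.Perm (Fin 416)) (v : ℕ → Γ)
  {f : ℕ → ℕ → ℕ} {L : ℕ} {C : List ℕ} {ws : List (List ℕ)} {roots : List ℕ} {k : ℕ}

/-- The stabiliser of a point. -/
def stabAt (x : Fin 416) : Subgroup Γ := (MulAction.stabilizer (Equiv.Perm (Fin 416)) x).comap ρ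

theorem mem_stabAt {x : Fin 416} {a : Γ} : a ∈ stabAt ρ x ↔ ρ a x = x := Iff.rfl

theorem card_stabAt_mul (x : Fin 416) :
    Nat.card (stabAt ρ x) * {i | ∃ a : Γ, ρ a x = i}.ncard = Nat.card Γ := by
  letI : MulAction Γ (Fin 416) := MulAction.compHom _ ρ
  have h1 : MulAction.stabilizer Γ x = stabAt ρ x := rfl
  have h2 : MulAction.orbit Γ x = {i | ∃ a : Γ, ρ a x = i} := rfl
  rw [← h1, ← h2, ← MulAction.index_stabilizer, Subgroup.card_mul_index]

variable (hv : ∀ x < L, ∀ i : Fin 416, ((ρ (v x) i : Fin 416) : ℕ) = f x i)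
include hv

theorem rho_gword (w : List ℕ) (hw : ∀ x ∈ w, x < L) (i : Fin 416) :
    ((ρ (gword v w) i : Fin 416) : ℕ) = runR f w i := by
  rw [gword_map]
  exact gword_runR (fun x => ρ (v x)) f L hv w hw i

variable (hgen : seg v L = ⊤) (rep : Fin 416) (hc : certOK f L C ws roots rep k = true)
include hgen hc

theorem orbit_eq : {i | ∃ a : Γ, ρ a rep = i} = {i : Fin 416 | ent C 0 i < k} := by
  simp only [certOK, Bool.and_eq_true, Model.allBelow_iff, Nat.blt, Nat.ble_eq, Bool.or_eq_true,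
    Bool.not_eq_true', beq_iff_eq, List.all_eq_true] at hc
  obtain ⟨⟨⟨⟨-, hrep⟩, hpts⟩, -⟩, -⟩ := hc
  have hpt : ∀ i : Fin 416, ent C 0 i < k → _ := fun i hi =>
    ((hpts i i.2).resolve_left fun h => by
      rw [Nat.ble_eq_true_of_le (show ent C 0 i + 1 ≤ k from hi)] at h; cases h)
  apply Set.Subset.antisymm
  · rintro i ⟨a, rfl⟩
    have ha : a ∈ seg v L := hgen ▸ Subgroup.mem_top a
    suffices h : ∀ j : Fin 416, ent C 0 (ρ a j) < k ↔ ent C 0 j < k from (h rep).2 hrep
    induction ha using Subgroup.closure_induction with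
    | mem z hz =>
      obtain ⟨x, hx, rfl⟩ := hz
      have hmaps : Set.MapsTo (ρ (v x)) {j : Fin 416 | ent C 0 j < k}
          {j : Fin 416 | ent C 0 j < k} := fun j hj => by
        show ent C 0 (ρ (v x) j) < k
        rw [hv x hx]; exact (hpt j hj).1.1 x hx
      intro j
      refine ⟨fun hj => ?_, fun hj => hmaps hj⟩
      obtain ⟨l, hl, hlj⟩ := (((Set.toFinite _).injOn_iff_bijOn_of_mapsTo hmaps).1
        (ρ (v x)).injective.injOn).surjOn hj
      rwa [← (ρ (v x)).injective hlj]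
    | one => simp
    | mul a b _ _ iha ihb => intro j; rw [map_mul, Equiv.Perm.mul_apply, iha, ihb]
    | inv a _ iha => intro j; rw [← iha]; simp
  · suffices h : ∀ n, ∀ i : Fin 416, ent C 1 i = n → ent C 0 i < k → ∃ a : Γ, ρ a rep = i from
      fun i hi => h _ i rfl hi
    intro n
    induction n using Nat.strong_induction_on with
    | _ n ih =>
      intro i hn hi
      rcases (hpt i hi).1.2 with he | ⟨⟨⟨⟨hr, hg⟩, hp⟩, hpk⟩, hm⟩
      · exact ⟨1, by rw [map_one]; exact (Fin.ext he).symm⟩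
      · obtain ⟨a, ha⟩ := ih _ (hn ▸ hr) ⟨ent C 2 i, hp⟩ rfl hpk
        refine ⟨v (ent C 3 i) * a, Fin.ext ?_⟩
        rw [map_mul, Equiv.Perm.mul_apply, ha, hv _ hg]
        exact hm

theorem same_part {y z : Fin 416} (hy : ent C 0 y < k) (hz : ent C 0 z < k)
    (he : ent C 0 y = ent C 0 z) : ∃ a : Γ, ρ a rep = rep ∧ ρ a y = z := by
  simp only [certOK, Bool.and_eq_true, Model.allBelow_iff, Nat.blt, Nat.ble_eq, Bool.or_eq_true,
    Bool.not_eq_true', beq_iff_eq, List.all_eq_true] at hc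
  obtain ⟨⟨⟨-, hpts⟩, hws⟩, -⟩ := hc
  have key : ∀ n, ∀ i : Fin 416, ent C 4 i = n → ent C 0 i < k →
      ∃ (a : Γ) (r : Fin 416), (r : ℕ) = roots.getD (ent C 0 i) 0 ∧ ρ a rep = rep ∧ ρ a r = i := by
    intro n
    induction n using Nat.strong_induction_on with
    | _ n ih =>
      intro i hn hi
      rcases ((hpts i i.2).resolve_left fun h => by
        rw [Nat.ble_eq_true_of_le (show ent C 0 i + 1 ≤ k from hi)] at h; cases h).2
        with h | ⟨⟨⟨⟨hr, hg⟩, hp⟩, hl⟩, hm⟩
      · exact ⟨1, i, h, by rw [map_one]; rfl, by rw [map_one]; rfl⟩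
      · obtain ⟨a, r, hr', hfix, hmov⟩ := ih _ (hn ▸ hr) ⟨ent C 5 i, hp⟩ rfl (by rw [hl]; exact hi)
        have hmem : ws.getD (ent C 6 i) [] ∈ ws := by
          rw [List.getD_eq_getElem _ _ hg]; exact List.getElem_mem hg
        refine ⟨gword v (ws.getD (ent C 6 i) []) * a, r, hr'.trans (by rw [hl]), ?_, ?_⟩
        · rw [map_mul, Equiv.Perm.mul_apply, hfix]
          exact Fin.ext ((rho_gword ρ v hv _ (hws _ hmem).1 _).trans (hws _ hmem).2)
        · rw [map_mul, Equiv.Perm.mul_apply, hmov]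
          exact Fin.ext ((rho_gword ρ v hv _ (hws _ hmem).1 _).trans hm)
  obtain ⟨a, r, hr, ha, ha'⟩ := key _ y rfl hy
  obtain ⟨b, r', hr', hb, hb'⟩ := key _ z rfl hz
  have hrr : r = r' := Fin.ext (by rw [hr, hr', he])
  refine ⟨b * a⁻¹, ?_, ?_⟩
  · rw [map_mul, map_inv, Equiv.Perm.mul_apply, show (ρ a)⁻¹ rep = rep by
      rw [Equiv.Perm.inv_eq_iff_eq, ha], hb]
  · rw [map_mul, map_inv, Equiv.Perm.mul_apply, show (ρ a)⁻¹ y = r by
      rw [Equiv.Perm.inv_eq_iff_eq, ha'], hrr, hb']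

/-- The certified point stabiliser is maximal. -/
theorem isCoatom_stab (hne : 1 < orbCount C k) : IsCoatom (stabAt ρ rep) := by
  classical
  have horb := orbit_eq ρ v hv hgen rep hc
  have hsame := @same_part _ _ _ ρ v f L C ws roots k hv hgen rep hc
  have hn : {i | ∃ a : Γ, ρ a rep = i}.ncard = orbCount C k := by
    rw [horb, orbCount, show {i : Fin 416 | ent C 0 i < k} =
      {i : Fin 416 | (ent C 0 i).blt k = true} from Set.ext fun i => Nat.ble_eq.to_iff.symm]
    exact ncard_eq_countP fun i => (ent C 0 i).blt k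
  refine ⟨fun htop => ?_, fun M hM => ?_⟩
  · have h := card_stabAt_mul ρ rep
    rw [htop, Subgroup.card_top, hn] at h
    have hpos := Nat.card_pos (α := Γ)
    nlinarith
  · set B : Set (Fin 416) := {i | ∃ a ∈ M, ρ a rep = i} with hB
    have hBO : ∀ i ∈ B, ent C 0 i < k := fun i ⟨a, _, ha⟩ =>
      (Set.ext_iff.1 horb i).1 ⟨a, ha⟩
    obtain ⟨m, hm, hbit⟩ := exists_bits (fun l => ∃ i ∈ B, ent C 0 i = l) k
    have hBm : B = {i : Fin 416 | ((ent C 0 i).blt k && m.testBit (ent C 0 i)) = true} := by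
      ext i
      simp only [Set.mem_setOf_eq, Bool.and_eq_true, Nat.blt, Nat.ble_eq]
      constructor
      · exact fun hi => ⟨hBO i hi, (hbit _ (hBO i hi)).2 ⟨i, hi, rfl⟩⟩
      · rintro ⟨hi, hbiti⟩
        obtain ⟨y, ⟨a, ha, hay⟩, hlab⟩ := (hbit _ hi).1 hbiti
        obtain ⟨b, hb, hbi⟩ := hsame (hBO y ⟨a, ha, hay⟩) hi hlab
        exact ⟨b * a, mul_mem (hM.le (mem_stabAt ρ |>.2 hb)) ha, by
          rw [map_mul, Equiv.Perm.mul_apply, hay, hbi]⟩
    have hBcard : B.ncard = maskCount C k m := by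
      rw [hBm]; exact ncard_eq_countP fun i => (ent C 0 i).blt k && m.testBit (ent C 0 i)
    have hdvd : B.ncard ∣ orbCount C k := by
      let ρM := ρ.comp M.subtype
      have h1 := card_stabAt_mul ρM rep
      have hBM : {i | ∃ a : M, ρM a rep = i} = B := Set.ext fun i =>
        ⟨fun ⟨a, ha⟩ => ⟨a, a.2, ha⟩, fun ⟨a, ha, hi⟩ => ⟨⟨a, ha⟩, hi⟩⟩
      have h2 : Nat.card (stabAt ρM rep) = Nat.card (stabAt ρ rep) :=
        Nat.card_congr (Subgroup.subgroupOfEquivOfLe hM.le).toEquiv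
      rw [hBM, h2] at h1
      refine Nat.dvd_of_mul_dvd_mul_left (Nat.card_pos (α := stabAt ρ rep)) ?_
      rw [h1, ← hn, card_stabAt_mul]
      exact Subgroup.card_subgroup_dvd_card M
    have hrepB : rep ∈ B := ⟨1, one_mem _, by rw [map_one]; rfl⟩
    have hmask : maskCount C k m = 1 ∨ maskCount C k m = orbCount C k := by
      simp only [certOK, Bool.and_eq_true, Model.allBelow_iff, Bool.or_eq_true, Bool.not_eq_true',
        beq_iff_eq, bne_iff_ne] at hc
      obtain ⟨-, hm'⟩ := hc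
      have hrepbit : m.testBit (ent C 0 rep) = true :=
        (hbit _ (hBO rep hrepB)).2 ⟨rep, hrepB, rfl⟩
      rcases hm' m hm with ((h | h) | h) | h
      · rw [hrepbit] at h; cases h
      · exact absurd (Nat.mod_eq_zero_of_dvd (hBcard ▸ hdvd)) h
      · exact Or.inl h
      · exact Or.inr h
    rcases hmask with h1 | h1
    · obtain ⟨a, ha, hanot⟩ := SetLike.exists_of_lt hM
      refine absurd (mem_stabAt ρ |>.2 ?_) hanot
      obtain ⟨w, hw⟩ := Set.ncard_eq_one.1 (hBcard.trans h1)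
      have e1 : ρ a rep = w := by
        simpa [hw] using (show ρ a rep ∈ B from ⟨a, ha, rfl⟩)
      have e2 : rep = w := by simpa [hw] using hrepB
      rw [e1, ← e2]
    · have hall : B = {i : Fin 416 | ent C 0 i < k} :=
        Set.eq_of_subset_of_ncard_le hBO (by rw [hBcard, h1, ← hn, horb]) (Set.toFinite _)
      refine eq_top_iff.2 fun g _ => ?_
      obtain ⟨a, ha, hag⟩ : ρ g rep ∈ B := by
        rw [hall, ← horb]; exact ⟨g, rfl⟩
      have hs : a⁻¹ * g ∈ stabAt ρ rep := by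
        rw [mem_stabAt, map_mul, map_inv, Equiv.Perm.mul_apply, Equiv.Perm.inv_eq_iff_eq, hag]
      simpa using mul_mem ha (hM.le hs)

/-- The certified point stabilisers along the orbit are maximal. -/
theorem isCoatom_stab_of_mem (hne : 1 < orbCount C k) {i : Fin 416} (hi : ent C 0 i < k) :
    IsCoatom (stabAt ρ i) := by
  obtain ⟨g, hg⟩ : ∃ g : Γ, ρ g rep = i := by
    have := (Set.ext_iff.1 (orbit_eq ρ v hv hgen rep hc) i).2 hi
    exact this
  have hconj : (MulAut.conj g).mapSubgroup (stabAt ρ rep) = stabAt ρ i := by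
    ext a
    rw [MulEquiv.mapSubgroup_apply, Subgroup.mem_map, mem_stabAt]
    constructor
    · rintro ⟨b, hb, rfl⟩
      have hginv : (ρ g)⁻¹ i = rep := Equiv.Perm.inv_eq_iff_eq.2 hg.symm
      show ρ (g * b * g⁻¹) i = i
      rw [map_mul, map_mul, map_inv, Equiv.Perm.mul_apply, Equiv.Perm.mul_apply, hginv,
        (mem_stabAt ρ).1 hb, hg]
    · intro ha
      refine ⟨g⁻¹ * a * g, (mem_stabAt ρ).2 ?_, ?_⟩
      · rw [map_mul, map_mul, map_inv, Equiv.Perm.mul_apply, Equiv.Perm.mul_apply, hg, ha,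
          Equiv.Perm.inv_eq_iff_eq, hg]
      · show g * (g⁻¹ * a * g) * g⁻¹ = a
        group
  rw [← hconj, OrderIso.isCoatom_iff]
  exact isCoatom_stab ρ v hv hgen rep hc hne

end Certificate

/-- Elements with the relations of `J₂` generate the trivial group or `J₂`. -/
theorem nonempty_equiv_seg {Γ : Type*} [Group Γ] (w : ℕ → Γ)
    (hw : ∀ l ∈ Hundred.rels, gword w l = 1) (hnt : Nontrivial (Hundred.seg w 5)) :
    Nonempty (Hundred.grp ≃* Hundred.seg w 5) := by
  let u : ℕ → Equiv.Perm (Fin Hundred.D.n) × Γ := fun x => (Hundred.sigma x, w x)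
  have hu : ∀ l ∈ Hundred.rels, gword u l = 1 := fun l hl => by
    refine Prod.ext ?_ ?_
    · show MonoidHom.fst _ _ (gword u l) = 1
      rw [gword_map]; exact Hundred.sigma_rels l hl
    · show MonoidHom.snd _ _ (gword u l) = 1
      rw [gword_map]; exact hw l hl
  obtain ⟨hle, hne⟩ := Hundred.card_seg_le u hu
  have : Finite (Hundred.seg u 5) := Nat.finite_of_card_ne_zero hne
  let P := Hundred.seg u 5
  have hfst : P.map (MonoidHom.fst _ _) = Hundred.grp := map_seg _ _ _
  have hsnd : P.map (MonoidHom.snd _ _) = Hundred.seg w 5 := map_seg _ _ _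
  let p : P →* Hundred.grp :=
    (MulEquiv.subgroupCongr hfst).toMonoidHom.comp (MonoidHom.subgroupMap (MonoidHom.fst _ _) P)
  let s : P →* Hundred.seg w 5 :=
    (MulEquiv.subgroupCongr hsnd).toMonoidHom.comp (MonoidHom.subgroupMap (MonoidHom.snd _ _) P)
  have hp : Function.Surjective p :=
    (MulEquiv.subgroupCongr hfst).surjective.comp (MonoidHom.subgroupMap_surjective _ _)
  have hs : Function.Surjective s :=
    (MulEquiv.subgroupCongr hsnd).surjective.comp (MonoidHom.subgroupMap_surjective _ _)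
  have hcard : Nat.card P = Nat.card Hundred.grp :=
    le_antisymm (hle.trans_eq Hundred.card_grp.symm) (Nat.card_le_card_of_surjective p hp)
  let e := MulEquiv.ofBijective p ((Nat.bijective_iff_surjective_and_card p).2 ⟨hp, hcard⟩)
  have := Hundred.simple
  let t : Hundred.grp →* Hundred.seg w 5 := s.comp e.symm.toMonoidHom
  have ht : Function.Surjective t := hs.comp e.symm.surjective
  refine ⟨MulEquiv.ofBijective t ⟨?_, ht⟩⟩
  rw [← MonoidHom.ker_eq_bot_iff]
  refine t.normal_ker.eq_bot_or_eq_top.resolve_right fun htop => ?_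
  obtain ⟨a, b, hab⟩ := exists_pair_ne (Hundred.seg w 5)
  obtain ⟨a', rfl⟩ := ht a
  obtain ⟨b', rfl⟩ := ht b
  have h1 : ∀ z, t z = 1 := fun z => MonoidHom.mem_ker.1 (htop ▸ Subgroup.mem_top z)
  exact hab (by rw [h1, h1])

end CfsgLib.GTwoFour
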